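import Cfsg.Agent.H184.ArcBase

/-!
# The planar arc lemma (for S2195, task of helper91)
-/

set_option autoImplicit false
set_option linter.unusedSectionVars false

namespace Cfsg.Agent.H184.Arc

open Module

variable {F M : Type*} [Field F] [Fintype F] [AddCommGroup M] [Module F M]

/-- the number of points of `S` on the line `⟨e, w⟩` different from `e` -/
noncomputable def row (F : Type*) {M : Type*} [Field F] [Fintype F] [AddCommGroup M] [Module F M] (S : Set M)
    (e w : M) : ℕ := ∑ a : F, chi S (w + a • e)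

/-- the numerical hypothesis -/
structure IsArc (F : Type*) {M : Type*} [Field F] [Fintype F] [AddCommGroup M] [Module F M] (S : Set M) (b : ℕ) :
    Prop where
  cone : Cone F S
  line : ∀ e w : M, Ind F e w → chi S e + row F S e w = 0 ∨ chi S e + row F S e w = b
  dim : finrank F M = 3
  b1 : 1 < b
  bq : b < Fintype.card F
  odd : Odd (Fintype.card F)
  ne : S.Nonempty

variable {S : Set M} {b : ℕ}

theorem IsArc.two_ne (A : IsArc F S b) : (2 : F) ≠ 0 := by
  intro h
  have : CharP F 2 := CharTwo.of_one_ne_zero_of_two_eq_zero one_ne_zero h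
  have h1 := FiniteField.even_card_iff_char_two.1 (ringChar.eq_iff.2 this)
  have h2 := A.odd
  rw [Nat.odd_iff] at h2
  omega

theorem IsArc.finDim (A : IsArc F S b) : FiniteDimensional F M :=
  FiniteDimensional.of_finrank_pos (by rw [A.dim]; norm_num)

theorem bas_of_ind (A : IsArc F S b) {z w₁ w₂ : M}
    (h : ∀ a b c : F, a • z + b • w₁ + c • w₂ = 0 → a = 0 ∧ b = 0 ∧ c = 0) : Bas F z w₁ w₂ := by
  have := A.finDim
  refine ⟨h, fun v => ?_⟩
  have hli : LinearIndependent F ![z, w₁, w₂] := by
    rw [Fintype.linearIndependent_iff]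
    intro g hg
    rw [Fin.sum_univ_three] at hg
    have h1 := h (g 0) (g 1) (g 2) hg
    intro i
    fin_cases i
    · exact h1.1
    · exact h1.2.1
    · exact h1.2.2
  have h2 := hli.span_eq_top_of_card_eq_finrank (by rw [Fintype.card_fin, A.dim])
  have h3 : v ∈ Submodule.span F (Set.range ![z, w₁, w₂]) := by rw [h2]; trivial
  rw [Submodule.mem_span_range_iff_exists_fun] at h3
  obtain ⟨c, hc⟩ := h3
  rw [Fin.sum_univ_three] at hc
  exact ⟨c 0, c 1, c 2, hc.symm⟩

/-- a plane not containing `z` gives a basis -/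
theorem bas_of_notMem (A : IsArc F S b) {z w₁ w₂ : M} (h : Ind F w₂ w₁) (hz : z ∉ Submodule.span F {w₂, w₁}) :
    Bas F z w₁ w₂ := by
  refine bas_of_ind A fun a b c habc => ?_
  have ha : a = 0 := by
    by_contra ha
    apply hz
    have h1 : z = a⁻¹ • (a • z) := by rw [smul_smul, inv_mul_cancel₀ ha, one_smul]
    have h2 : a • z = -(c • w₂ + b • w₁) := by
      rw [add_assoc] at habc
      rw [eq_neg_of_add_eq_zero_left habc, add_comm]
    rw [h1, h2]
    exact Submodule.smul_mem _ _ (Submodule.neg_mem _ (Submodule.mem_span_pair.2 ⟨c, b, rfl⟩))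
  rw [ha, zero_smul, zero_add, add_comm] at habc
  obtain ⟨h1, h2⟩ := h _ _ habc
  exact ⟨ha, h2, h1⟩

theorem exists_notMem (A : IsArc F S b) {e w : M} (h : Ind F e w) : ∃ z, z ∉ Submodule.span F {e, w} := by
  by_contra hcon
  push Not at hcon
  have h1 : Submodule.span F {e, w} = ⊤ := (Submodule.eq_top_iff'.2 hcon)
  have h2 := h.finrank
  rw [h1, finrank_top, A.dim] at h2
  norm_num at h2

theorem exists_notMem_one (A : IsArc F S b) (e : M) : ∃ z, ∀ c : F, z ≠ c • e := by
  by_contra hcon
  push Not at hcon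
  have h1 : (Submodule.span F {e} : Submodule F M) = ⊤ := by
    rw [Submodule.eq_top_iff']
    intro z
    obtain ⟨c, hc⟩ := hcon z
    exact Submodule.mem_span_singleton.2 ⟨c, hc.symm⟩
  have h2 := finrank_span_le_card (R := F) ({e} : Set M)
  rw [h1, finrank_top, A.dim] at h2
  simp at h2

theorem exists_bas (A : IsArc F S b) {z : M} (hz : z ≠ 0) : ∃ w₁ w₂, Bas F z w₁ w₂ := by
  obtain ⟨w₁, h1⟩ := exists_notMem_one A z
  have hi : Ind F z w₁ := ind_of_not hz h1
  obtain ⟨w₂, h2⟩ := exists_notMem A hi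
  have h3 := bas_of_notMem A hi h2
  exact ⟨w₁, w₂, bas_of_ind A fun a b c habc => by
    have := h3.ind c b a (by rw [← habc]; abel)
    exact ⟨this.2.2, this.2.1, this.1⟩⟩

theorem card_pos (A : IsArc F S b) : 0 < Fintype.card F - 1 := by
  have := A.b1
  have := A.bq
  omega

/-- the number of points -/
theorem exists_num (A : IsArc F S b) : ∃ N : ℕ, S.ncard = (Fintype.card F - 1) * N ∧
    N + Fintype.card F = b * (Fintype.card F + 1) ∧
    ∀ z w₁ w₂ : M, Bas F z w₁ w₂ → N = chi S z + ∑ i : Option F, row F S z (pt w₂ w₁ i) := by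
  obtain ⟨s, hs⟩ := A.ne
  obtain ⟨w₁, w₂, hb⟩ := exists_bas A (A.cone.ne hs)
  refine ⟨chi S s + ∑ i : Option F, row F S s (pt w₂ w₁ i), card_all A.cone hb, ?_, ?_⟩
  · have h1 : ∀ i : Option F, row F S s (pt w₂ w₁ i) = b - 1 := by
      intro i
      have h2 := A.line s (pt w₂ w₁ i) (hb.ind_pt i)
      rw [chi_pos hs] at h2
      omega
    rw [Finset.sum_congr rfl fun i _ => h1 i, Finset.sum_const, Finset.card_univ, Fintype.card_option, chi_pos hs,
      smul_eq_mul]
    have hb1 := A.b1
    obtain ⟨c, rfl⟩ : ∃ c, b = c + 1 := ⟨b - 1, by omega⟩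
    rw [Nat.add_sub_cancel]
    ring
  · intro z v₁ v₂ hv
    have h1 := card_all A.cone hb
    have h2 := card_all A.cone hv
    rw [h1] at h2
    exact Nat.eq_of_mul_eq_mul_left (card_pos A) h2

/-- a point outside `S` -/
theorem exists_out (A : IsArc F S b) : ∃ z : M, z ≠ 0 ∧ z ∉ S := by
  obtain ⟨s, hs⟩ := A.ne
  obtain ⟨w₁, w₂, hb⟩ := exists_bas A (A.cone.ne hs)
  have hi : Ind F s w₁ := hb.ind_pt (some (0 : F)) |> fun h => by simpa [pt_some] using h
  by_contra hcon
  push Not at hcon
  have h1 := A.line s w₁ hi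
  have h2 : row F S s w₁ = Fintype.card F := by
    unfold row
    rw [Finset.sum_congr rfl fun a _ => chi_pos (hcon _ (by
      have := pt_ne hi (some a)
      rwa [pt_some] at this))]
    simp
  rw [h2] at h1
  have := A.bq
  omega

theorem b_dvd (A : IsArc F S b) : b ∣ Fintype.card F := by
  obtain ⟨N, -, h1, h2⟩ := exists_num A
  obtain ⟨z, hz, hzS⟩ := exists_out A
  obtain ⟨w₁, w₂, hb⟩ := exists_bas A hz
  have h3 := h2 z w₁ w₂ hb
  rw [chi_neg hzS, zero_add] at h3
  have h4 : b ∣ N := by
    rw [h3]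
    refine Finset.dvd_sum fun i _ => ?_
    have h5 := A.line z (pt w₂ w₁ i) (hb.ind_pt i)
    rw [chi_neg hzS, zero_add] at h5
    rcases h5 with h5 | h5 <;> rw [h5]
    exact dvd_zero _
  have h5 : b ∣ N + Fintype.card F := by rw [h1]; exact dvd_mul_right _ _
  exact (Nat.dvd_add_right h4).1 h5

theorem b_odd (A : IsArc F S b) : Odd b := A.odd.of_dvd_nat (b_dvd A)

/-- parity of a symmetric row -/
theorem row_parity (A : IsArc F S b) {e w : M} (h : ∀ a : F, w + a • e ∈ S → w - a • e ∈ S) :
    row F S e w % 2 = chi S w % 2 := by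
  classical
  have h2 := A.two_ne
  have key : ((row F S e w : ℕ) : ZMod 2) = ((chi S w : ℕ) : ZMod 2) := by
    unfold row
    rw [Nat.cast_sum, ← Finset.add_sum_erase _ _ (Finset.mem_univ (0 : F)), zero_smul, add_zero]
    have h3 : ∑ a ∈ Finset.univ.erase (0 : F), ((chi S (w + a • e) : ℕ) : ZMod 2) = 0 := by
      refine Finset.sum_involution (fun a _ => -a) ?_ ?_ ?_ ?_
      · intro a _
        have h4 : chi S (w + (-a) • e) = chi S (w + a • e) := by
          refine chi_congr ⟨fun h5 => ?_, fun h5 => ?_⟩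
          · have := h _ h5
            rwa [neg_smul, sub_neg_eq_add] at this
          · rw [neg_smul, ← sub_eq_add_neg]
            exact h _ h5
        rw [h4]
        exact CharTwo.add_self_eq_zero _
      · intro a ha _ h5
        have ha0 : a ≠ 0 := Finset.ne_of_mem_erase ha
        have h6 : a + a = 0 := by
          nth_rewrite 1 [← h5]
          exact neg_add_cancel a
        rw [← two_mul] at h6
        rcases mul_eq_zero.1 h6 with h6 | h6
        · exact h2 h6
        · exact ha0 h6
      · intro a ha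
        rw [Finset.mem_erase] at ha ⊢
        exact ⟨neg_ne_zero.2 ha.1, Finset.mem_univ _⟩
      · intro a _
        exact neg_neg a
    rw [h3, add_zero]
  exact (ZMod.natCast_eq_natCast_iff' _ _ 2).1 key

/-- a row invariant under a translation -/
theorem dvd_row {p : ℕ} [CharP F p] {e w : M} {τ : F} (hτ : τ ≠ 0)
    (h : ∀ a : F, w + a • e ∈ S → w + (a + τ) • e ∈ S) : p ∣ row F S e w := by
  classical
  set I : Finset F := Finset.univ.filter fun a => w + a • e ∈ S with hI
  have h1 : row F S e w = I.card := by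
    unfold row
    rw [hI, Finset.card_filter]
    refine Finset.sum_congr rfl fun a _ => ?_
    by_cases h : w + a • e ∈ S
    · rw [chi_pos h, if_pos h]
    · rw [chi_neg h, if_neg h]
  have h2 : I.map (addRightEmbedding τ) = I := by
    refine Finset.eq_of_subset_of_card_le ?_ ?_
    · intro a ha
      rw [Finset.mem_map] at ha
      obtain ⟨c, hc, rfl⟩ := ha
      rw [hI, Finset.mem_filter] at hc ⊢
      exact ⟨Finset.mem_univ _, h c hc.2⟩
    · rw [Finset.card_map]
  have h3 : ∑ a ∈ I, a = ∑ a ∈ I, (a + τ) := by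
    nth_rewrite 1 [← h2]
    rw [Finset.sum_map]
    rfl
  rw [Finset.sum_add_distrib, Finset.sum_const, nsmul_eq_mul] at h3
  have h4 : (I.card : F) * τ = 0 := by
    have := h3.symm
    rwa [add_eq_left] at this
  rcases mul_eq_zero.1 h4 with h5 | h5
  · rw [h1]
    exact (CharP.cast_eq_zero_iff F p _).1 h5
  · exact absurd h5 hτ

/-! ### Reflections -/

/-- the reflection with centre `e` and axis `ker φ` preserves `S` -/
structure Refl (S : Set M) (e : M) (φ : M →ₗ[F] F) : Prop where
  mem : e ∈ S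
  two : φ e = 2
  pres : ∀ v ∈ S, v - φ v • e ∈ S

/-- the axis contains no points of `S` -/
theorem Refl.ne (A : IsArc F S b) {e : M} {φ : M →ₗ[F] F} (h : Refl S e φ) {v : M} (hv : v ∈ S) : φ v ≠ 0 := by
  intro h0
  have hi : Ind F e v := by
    refine ind_of_not (A.cone.ne h.mem) fun c hc => ?_
    rw [hc, map_smul, h.two, smul_eq_mul] at h0
    rcases mul_eq_zero.1 h0 with h1 | h1
    · rw [h1, zero_smul] at hc
      exact A.cone.ne hv hc
    · exact A.two_ne h1
  have h1 := row_parity A (e := e) (w := v) (by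
    intro a ha
    have h2 := h.pres _ ha
    rw [map_add, map_smul, h0, h.two, smul_eq_mul, zero_add] at h2
    convert h2 using 1
    rw [mul_comm, two_mul, add_smul]
    abel)
  have h2 := A.line e v hi
  rw [chi_pos h.mem] at h2
  rw [chi_pos hv] at h1
  have h3 := b_odd A
  rw [Nat.odd_iff] at h3
  omega

end Cfsg.Agent.H184.Arc
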