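import Cfsg.Agent.H184.ArcInv

/-!
# The planar arc lemma: group theory
-/

set_option autoImplicit false
set_option linter.unusedSectionVars false

namespace Cfsg.Agent.H184.Arc

open Module

variable {F M : Type*} [Field F] [Fintype F] [AddCommGroup M] [Module F M] {S : Set M} {b : ℕ}

/-- the action on subspaces -/
@[reducible] def actSub (F M : Type*) [Field F] [AddCommGroup M] [Module F M] :
    MulAction (M ≃ₗ[F] M) (Submodule F M) where
  smul g L := L.map (g : M →ₗ[F] M)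
  one_smul L := Submodule.map_id L
  mul_smul g h L := Submodule.map_comp (h : M →ₗ[F] M) (g : M →ₗ[F] M) L

theorem finite_equiv (A : IsArc F S b) : Finite (M ≃ₗ[F] M) := by
  have := A.finDim
  have : Finite M := Module.finite_of_finite F
  exact Finite.of_injective (fun g : M ≃ₗ[F] M => (g : M → M)) DFunLike.coe_injective

theorem app_inv {F M : Type*} [Field F] [AddCommGroup M] [Module F M] (g : M ≃ₗ[F] M) (v : M) : g (g⁻¹ v) = v := by
  change (g * g⁻¹) v = v
  rw [mul_inv_cancel]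
  rfl

/-- the planes through `s` -/
theorem card_planes (A : IsArc F S b) {s : M} (hs : s ≠ 0) :
    {L : Submodule F M | finrank F L = 2 ∧ s ∈ L}.ncard = Fintype.card F + 1 := by
  have := A.finDim
  obtain ⟨w₁, w₂, hb⟩ := exists_bas A hs
  rw [← Nat.card_coe_set_eq, ← Fintype.card_option, ← Nat.card_eq_fintype_card]
  symm
  refine Nat.card_eq_of_bijective (fun i : Option F => (⟨Submodule.span F {s, pt w₂ w₁ i},
    (hb.ind_pt i).finrank, Submodule.subset_span (by simp)⟩ : ↥{L : Submodule F M | finrank F L = 2 ∧ s ∈ L})) ⟨?_, ?_⟩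
  · intro i j hij
    have h1 : Submodule.span F {s, pt w₂ w₁ i} = Submodule.span F {s, pt w₂ w₁ j} := congrArg Subtype.val hij
    have h2 : pt w₂ w₁ i ∈ Submodule.span F {s, pt w₂ w₁ j} := by
      rw [← h1]
      exact Submodule.subset_span (by simp)
    obtain ⟨x, y, hxy⟩ := Submodule.mem_span_pair.1 h2
    have key : pt w₂ w₁ i = y • pt w₂ w₁ j := by
      have h3 : x • s + (y • pt w₂ w₁ j - pt w₂ w₁ i) = 0 := by
        rw [← hxy]; abel
      obtain ⟨c, d, hcd⟩ := Submodule.mem_span_pair.1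
        (sub_mem (Submodule.smul_mem _ y (pt_mem w₂ w₁ j)) (pt_mem w₂ w₁ i))
      rw [← hcd, add_comm (c • w₂), ← add_assoc] at h3
      obtain ⟨-, h5, h6⟩ := hb.ind _ _ _ h3
      rw [h5, h6, zero_smul, zero_smul, add_zero] at hcd
      exact (sub_eq_zero.1 hcd.symm).symm
    exact pt_inj hb.ind12 i j y key
  · rintro ⟨L, hL2, hsL⟩
    obtain ⟨v, hvL, hv⟩ : ∃ v ∈ L, ∀ c : F, v ≠ c • s := by
      by_contra hcon
      push Not at hcon
      have h1 : L ≤ Submodule.span F {s} := by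
        intro v hv
        obtain ⟨c, hc⟩ := hcon v hv
        exact Submodule.mem_span_singleton.2 ⟨c, hc.symm⟩
      have h2 := Submodule.finrank_mono h1
      have h3 := finrank_span_le_card (R := F) ({s} : Set M)
      rw [hL2] at h2
      simp at h3
      omega
    obtain ⟨x, y, z, hxyz⟩ := hb.span v
    have hne : y • w₁ + z • w₂ ≠ 0 := by
      intro h0
      apply hv x
      rw [hxyz, add_assoc, h0, add_zero]
    have h1 : y • w₁ + z • w₂ ∈ Submodule.span F {w₂, w₁} :=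
      Submodule.mem_span_pair.2 ⟨z, y, add_comm _ _⟩
    obtain ⟨d, i, hd⟩ := exists_pt h1
    have hd0 : d ≠ 0 := by
      rintro rfl
      rw [zero_smul] at hd
      exact hne hd
    refine ⟨i, Subtype.ext ?_⟩
    change Submodule.span F {s, pt w₂ w₁ i} = L
    refine Submodule.eq_of_le_of_finrank_eq ?_ ?_
    · rw [Submodule.span_le]
      rintro w (rfl | hw)
      · exact hsL
      · rw [Set.mem_singleton_iff] at hw
        rw [hw]
        have h2 : pt w₂ w₁ i = d⁻¹ • (v - x • s) := by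
          rw [hxyz, add_assoc, add_sub_cancel_left, hd, smul_smul, inv_mul_cancel₀ hd0, one_smul]
        rw [h2]
        exact L.smul_mem _ (sub_mem hvL (L.smul_mem _ hsL))
    · rw [(hb.ind_pt i).finrank, hL2]

/-- an element of order 2 modulo scalars -/
theorem exists_invol (A : IsArc F S b) {s : M} (hs : s ∈ S)
    (h1 : ∀ L L' : Submodule F M, finrank F L = 2 → finrank F L' = 2 → s ∈ L → s ∈ L' →
      ∃ t : M ≃ₗ[F] M, (∀ v, t v ∈ S ↔ v ∈ S) ∧ (∃ c : F, t s = c • s) ∧ L.map (t : M →ₗ[F] M) = L') :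
    ∃ g : M ≃ₗ[F] M, (∀ v, g v ∈ S ↔ v ∈ S) ∧ (∃ c : F, g s = c • s) ∧ (∃ l : F, ∀ v, g (g v) = l • v) ∧
      ¬ ∃ c : F, ∀ v, g v = c • v := by
  classical
  have := finite_equiv A
  have hs0 := A.cone.ne hs
  have hinv : ∀ (g : M ≃ₗ[F] M) (v : M) (c : F), g v = c • v → c ≠ 0 → g⁻¹ v = c⁻¹ • v := by
    intro g v c h hc
    apply g.injective
    rw [app_inv, map_smul, h, smul_smul, inv_mul_cancel₀ hc, one_smul]
  have hcne : ∀ (g : M ≃ₗ[F] M) (c : F), g s = c • s → c ≠ 0 := by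
    rintro g c h rfl
    rw [zero_smul] at h
    exact hs0 (g.injective (h.trans (map_zero g).symm))
  let H : Subgroup (M ≃ₗ[F] M) :=
    { carrier := {g | (∀ v, g v ∈ S ↔ v ∈ S) ∧ ∃ c : F, g s = c • s}
      mul_mem' := by
        rintro g h ⟨hg, c, hc⟩ ⟨hh, d, hd⟩
        refine ⟨fun v => ?_, d * c, ?_⟩
        · rw [LinearEquiv.mul_apply, hg, hh]
        · rw [LinearEquiv.mul_apply, hd, map_smul, hc, smul_smul]
      one_mem' := ⟨fun v => Iff.rfl, 1, by rw [one_smul]; rfl⟩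
      inv_mem' := by
        rintro g ⟨hg, c, hc⟩
        refine ⟨fun v => ?_, c⁻¹, hinv g s c hc (hcne g c hc)⟩
        rw [← hg (g⁻¹ v), app_inv] }
  letI act := actSub F M
  obtain ⟨w₁, w₂, hb⟩ := exists_bas A hs0
  set L₀ : Submodule F M := Submodule.span F {s, pt w₂ w₁ (none : Option F)} with hL₀
  have hL₀2 : finrank F L₀ = 2 := (hb.ind_pt none).finrank
  have hsL₀ : s ∈ L₀ := Submodule.subset_span (by simp)
  have horb : MulAction.orbit ↥H L₀ = {L : Submodule F M | finrank F L = 2 ∧ s ∈ L} := by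
    ext L
    constructor
    · rintro ⟨⟨g, hg, c, hc⟩, rfl⟩
      refine ⟨?_, ?_⟩
      · change finrank F (L₀.map (g : M →ₗ[F] M)) = 2
        rw [LinearEquiv.finrank_map_eq, hL₀2]
      · change s ∈ L₀.map (g : M →ₗ[F] M)
        refine ⟨c⁻¹ • s, L₀.smul_mem _ hsL₀, ?_⟩
        change g (c⁻¹ • s) = s
        rw [map_smul, hc, smul_smul, inv_mul_cancel₀ (hcne g c hc), one_smul]
    · rintro ⟨hL2, hsL⟩
      obtain ⟨t, ht, hc, hm⟩ := h1 L₀ L hL₀2 hL2 hsL₀ hsL
      exact ⟨⟨t, ht, hc⟩, hm⟩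
  have hindex : (MulAction.stabilizer ↥H L₀).index = Fintype.card F + 1 := by
    rw [MulAction.index_stabilizer, horb, card_planes A hs0]
  let Z : Subgroup ↥H :=
    { carrier := {g | ∃ c : F, ∀ v, (g : M ≃ₗ[F] M) v = c • v}
      mul_mem' := by
        rintro g h ⟨c, hc⟩ ⟨d, hd⟩
        refine ⟨c * d, fun v => ?_⟩
        rw [Subgroup.coe_mul, LinearEquiv.mul_apply, hd, hc, smul_smul]
      one_mem' := ⟨1, fun v => by rw [one_smul]; rfl⟩
      inv_mem' := by
        rintro g ⟨c, hc⟩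
        exact ⟨c⁻¹, fun v => hinv _ v c (hc v) (hcne _ c (hc s))⟩ }
  have hZn : Z.Normal := by
    refine ⟨fun n hn g => ?_⟩
    obtain ⟨c, hc⟩ := hn
    refine ⟨c, fun v => ?_⟩
    rw [Subgroup.coe_mul, Subgroup.coe_mul, LinearEquiv.mul_apply, LinearEquiv.mul_apply, hc, map_smul, Subgroup.coe_inv,
      app_inv]
  have hZs : Z ≤ MulAction.stabilizer ↥H L₀ := by
    rintro g ⟨c, hc⟩
    rw [MulAction.mem_stabilizer_iff]
    change L₀.map ((g : M ≃ₗ[F] M) : M →ₗ[F] M) = L₀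
    have hc0 := hcne _ c (hc s)
    apply le_antisymm
    · rintro _ ⟨v, hv, rfl⟩
      change (g : M ≃ₗ[F] M) v ∈ L₀
      rw [hc]
      exact L₀.smul_mem _ hv
    · intro v hv
      refine ⟨c⁻¹ • v, L₀.smul_mem _ hv, ?_⟩
      change (g : M ≃ₗ[F] M) (c⁻¹ • v) = v
      rw [hc, smul_smul, mul_inv_cancel₀ hc0, one_smul]
  have h2 : 2 ∣ Nat.card (↥H ⧸ Z) := by
    have h3 : Nat.card (↥H ⧸ Z) = Z.relIndex (MulAction.stabilizer ↥H L₀) * (Fintype.card F + 1) := by
      rw [← hindex, Subgroup.relIndex_mul_index hZs]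
      rfl
    rw [h3]
    refine Dvd.dvd.mul_left ?_ _
    have := A.odd
    rw [Nat.odd_iff] at this
    omega
  obtain ⟨x, hx⟩ := exists_prime_orderOf_dvd_card' 2 h2
  obtain ⟨g, rfl⟩ := QuotientGroup.mk_surjective x
  have hgZ : g ∉ Z := by
    intro h
    rw [(QuotientGroup.eq_one_iff g).2 h, orderOf_one] at hx
    norm_num at hx
  have hg2 : g * g ∈ Z := by
    rw [← QuotientGroup.eq_one_iff, QuotientGroup.mk_mul, ← pow_two, ← hx]
    exact pow_orderOf_eq_one _
  obtain ⟨l, hl⟩ := hg2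
  exact ⟨g, g.2.1, g.2.2, ⟨l, fun v => hl v⟩, fun ⟨c, hc⟩ => hgZ ⟨c, hc⟩⟩

/-- **The reflections.** -/
theorem exists_refl (A : IsArc F S b) {s : M} (hs : s ∈ S)
    (h1 : ∀ L L' : Submodule F M, finrank F L = 2 → finrank F L' = 2 → s ∈ L → s ∈ L' →
      ∃ t : M ≃ₗ[F] M, (∀ v, t v ∈ S ↔ v ∈ S) ∧ (∃ c : F, t s = c • s) ∧ L.map (t : M →ₗ[F] M) = L') :
    ∃ φ : M →ₗ[F] F, Refl S s φ := by
  obtain ⟨g, h2, h3, h4, h5⟩ := exists_invol A hs h1
  exact refl_of_invol A hs g h2 h3 h4 h5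

end Cfsg.Agent.H184.Arc
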