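import Cfsg.Agent.H184.ArcSyl

/-!
# The planar arc lemma: the end (for S2195, task of helper91)
-/

set_option autoImplicit false
set_option linter.unusedSectionVars false

namespace Cfsg.Agent.H184.Arc

open Module

variable {F M : Type*} [Field F] [Fintype F] [AddCommGroup M] [Module F M] {S : Set M} {b : ℕ}

/-- the axis of a reflection contains the special point of a line through its centre -/
theorem axis_of_fix (A : IsArc F S b) {p : ℕ} [hp : Fact p.Prime] [CharP F p] (hpb : p ∣ b) {x : M} (hxS : x ∉ S)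
    {e : M} {φ : M →ₗ[F] F} (h : Refl S e φ) (hI : Ind F x e) (hsym : ∀ a : F, e + a • x ∈ S → e - a • x ∈ S) :
    φ x = 0 := by
  by_contra hτ
  have hneg : ∀ v : F, x - v • e ∈ S → x + v • e ∈ S := by
    intro v hv
    by_cases hv0 : v = 0
    · rw [hv0, zero_smul, sub_zero] at hv
      exact absurd hv hxS
    · have h1 : (-v⁻¹) • (x - v • e) ∈ S := A.cone.smul _ (neg_ne_zero.2 (inv_ne_zero hv0)) _ hv
      have h2 : (-v⁻¹) • (x - v • e) = e + (-v⁻¹) • x := by
        rw [smul_sub, smul_smul, neg_mul, inv_mul_cancel₀ hv0, neg_smul 1 e, one_smul]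
        abel
      rw [h2] at h1
      have h3 := hsym _ h1
      have h4 : v • (e - (-v⁻¹) • x) ∈ S := A.cone.smul _ hv0 _ h3
      have h5 : v • (e - (-v⁻¹) • x) = x + v • e := by
        rw [smul_sub, smul_smul, mul_neg, mul_inv_cancel₀ hv0, neg_smul, one_smul]
        abel
      rwa [h5] at h4
  have h1 : p ∣ row F S e x := by
    refine dvd_row (τ := φ x) hτ fun u hu => hneg _ ?_
    have h2 := h.pres _ hu
    rw [map_add, map_smul, h.two, smul_eq_mul] at h2
    convert h2 using 1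
    rw [add_smul, add_smul, mul_comm, two_mul, add_smul]
    abel
  have h2 := A.line e x hI.symm
  rw [chi_pos h.mem] at h2
  rcases h2 with h2 | h2
  · omega
  · rw [← h2] at hpb
    have := (Nat.dvd_add_left h1).1 hpb
    exact hp.out.one_lt.ne' (Nat.dvd_one.1 this)

/-- the data of the lemma -/
structure Full (F : Type*) {M : Type*} [Field F] [Fintype F] [AddCommGroup M] [Module F M] (S : Set M) (b : ℕ) :
    Prop where
  arc : IsArc F S b
  refl : ∀ s ∈ S, ∃ φ : M →ₗ[F] F, Refl S s φ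
  prod : ∀ (e e' : M) (φ φ' : M →ₗ[F] F), Refl S e φ → Refl S e' φ' → Ind F e e' → φ e' * φ' e = 4

theorem prod_eq (A : IsArc F S b) {p : ℕ} [hp : Fact p.Prime] [CharP F p] (hpb : p ∣ b)
    (hh : ∀ L : Submodule F M, finrank F L = 2 → ∀ s ∈ S, ∀ s' ∈ S, s ∈ L → s' ∈ L →
      ∃ t : M ≃ₗ[F] M, (∀ v, t v ∈ S ↔ v ∈ S) ∧ L.map (t : M →ₗ[F] M) = L ∧ ∃ c : F, t s = c • s')
    {e e' : M} {φ φ' : M →ₗ[F] F} (h : Refl S e φ) (h' : Refl S e' φ') (hI : Ind F e e') : φ e' * φ' e = 4 := by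
  have two := A.two_ne
  have heL : e ∈ Submodule.span F {e, e'} := Submodule.subset_span (by simp)
  have heL' : e' ∈ Submodule.span F {e, e'} := Submodule.subset_span (by simp)
  obtain ⟨x, hxL, hx0, hxS, hx⟩ := exists_fix A p hI.finrank (hh _ hI.finrank) ⟨e, h.mem, heL⟩
  obtain ⟨i1, s1⟩ := hx e h.mem heL
  obtain ⟨i2, s2⟩ := hx e' h'.mem heL'
  have a1 := axis_of_fix A hpb hxS h i1 s1
  have a2 := axis_of_fix A hpb hxS h' i2 s2
  obtain ⟨α, β, rfl⟩ := Submodule.mem_span_pair.1 hxL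
  rw [map_add, map_smul, map_smul, smul_eq_mul, smul_eq_mul] at a1 a2
  rw [h.two] at a1
  rw [h'.two] at a2
  have hβ : β ≠ 0 := by
    rintro rfl
    rw [zero_mul, add_zero] at a1
    rcases mul_eq_zero.1 a1 with a3 | a3
    · rw [a3, zero_smul, zero_smul, add_zero] at hx0
      exact hx0 rfl
    · exact two a3
  have h1 : β * (φ e' * φ' e - 4) = 0 := by
    linear_combination (φ' e) * a1 - 2 * a2
  rcases mul_eq_zero.1 h1 with h2 | h2
  · exact absurd h2 hβ
  · exact sub_eq_zero.1 h2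

/-- normalised centres -/
theorem Full.eq_two (A : Full F S b) {e₁ : M} {φ₁ : M →ₗ[F] F} (h₁ : Refl S e₁ φ₁) {e : M} {φ : M →ₗ[F] F}
    (h : Refl S e φ) (he : φ₁ e = 2) : φ e₁ = 2 := by
  have two := A.arc.two_ne
  by_cases hI : Ind F e₁ e
  · have h1 := A.prod _ _ _ _ h₁ h hI
    rw [he] at h1
    have h2 : (2 : F) * (φ e₁ - 2) = 0 := by linear_combination h1
    rcases mul_eq_zero.1 h2 with h3 | h3
    · exact absurd h3 two
    · exact sub_eq_zero.1 h3
  · obtain ⟨c, hc⟩ := not_ind (A.arc.cone.ne h₁.mem) hI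
    rw [hc, map_smul, h₁.two, smul_eq_mul] at he
    have h2 : (c - 1) * (2 : F) = 0 := by linear_combination he
    rcases mul_eq_zero.1 h2 with h3 | h3
    · rw [sub_eq_zero.1 h3, one_smul] at hc
      rw [← hc, h.two]
    · exact absurd h3 two

/-- two normalised proportional vectors are equal -/
theorem Full.eq_of_not_ind (A : Full F S b) {φ₁ : M →ₗ[F] F} {e e' : M} (he : e ∈ S) (h : φ₁ e = 2) (h' : φ₁ e' = 2)
    (hI : ¬ Ind F e e') : e' = e := by
  have two := A.arc.two_ne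
  obtain ⟨c, hc⟩ := not_ind (A.arc.cone.ne he) hI
  rw [hc, map_smul, h, smul_eq_mul] at h'
  have h2 : (c - 1) * (2 : F) = 0 := by linear_combination h'
  rcases mul_eq_zero.1 h2 with h3 | h3
  · rw [hc, sub_eq_zero.1 h3, one_smul]
  · exact absurd h3 two

theorem Full.eq_two' (A : Full F S b) {e₁ : M} {φ₁ : M →ₗ[F] F} (h₁ : Refl S e₁ φ₁) {e₂ : M} {φ₂ : M →ₗ[F] F}
    (h₂ : Refl S e₂ φ₂) (he₂ : φ₁ e₂ = 2) {e₃ : M} (he₃S : e₃ ∈ S) (he₃ : φ₁ e₃ = 2) : φ₂ e₃ = 2 := by
  have two := A.arc.two_ne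
  obtain ⟨φ₃, h₃⟩ := A.refl e₃ he₃S
  by_cases hI : Ind F e₂ e₃
  swap
  · rw [A.eq_of_not_ind h₂.mem he₂ he₃ hI, h₂.two]
  have k₂ := A.eq_two h₁ h₂ he₂
  have k₃ := A.eq_two h₁ h₃ he₃
  -- the fourth point
  set e₄ : M := (2 : F) • e₁ - e₃ with he₄
  have m₄ : e₄ ∈ S := by
    have h1 := h₁.pres _ he₃S
    rw [he₃] at h1
    have h2 := A.arc.cone.neg_iff.2 h1
    rwa [neg_sub] at h2
  have n₄ : φ₁ e₄ = 2 := by
    rw [he₄, map_sub, map_smul, h₁.two, he₃, smul_eq_mul]
    ring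
  have h₄ : Refl S e₄ ((2 : F) • φ₁ - φ₃) := by
    refine ⟨m₄, ?_, fun v hv => ?_⟩
    · rw [LinearMap.sub_apply, LinearMap.smul_apply, n₄, he₄, map_sub, map_smul, k₃, h₃.two, smul_eq_mul]
      ring
    · have h1 := h₁.pres _ (h₃.pres _ (h₁.pres _ hv))
      convert h1 using 1
      rw [LinearMap.sub_apply, LinearMap.smul_apply, he₄]
      simp only [map_sub, map_smul, smul_eq_mul, h₁.two, he₃, k₃]
      module
  by_cases hI' : Ind F e₂ e₄
  · have p1 := A.prod _ _ _ _ h₂ h₃ hI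
    have p2 := A.prod _ _ _ _ h₂ h₄ hI'
    rw [he₄, map_sub, map_smul, k₂, LinearMap.sub_apply, LinearMap.smul_apply, he₂, smul_eq_mul] at p2
    have h5 : (4 : F) * (4 - (φ₂ e₃ + φ₃ e₂)) = 0 := by linear_combination p2 - p1
    have four : (4 : F) ≠ 0 := by
      have : (4 : F) = 2 * 2 := by norm_num
      rw [this]
      exact mul_ne_zero two two
    rcases mul_eq_zero.1 h5 with h6 | h6
    · exact absurd h6 four
    · have h7 : (φ₂ e₃ - 2) ^ 2 = 0 := by
        linear_combination (-φ₂ e₃) * h6 - p1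
      have := pow_eq_zero_iff (two_ne_zero) |>.1 h7
      exact sub_eq_zero.1 this
  · have h5 := A.eq_of_not_ind h₂.mem he₂ n₄ hI'
    have h6 : φ₂ e₄ = 2 := by rw [h5, h₂.two]
    rw [he₄, map_sub, map_smul, k₂, smul_eq_mul] at h6
    linear_combination -h6

/-- the normalised vectors form an additive group -/
theorem Full.false (A : Full F S b) {p : ℕ} [hp : Fact p.Prime] [CharP F p] : False := by
  classical
  have := A.arc.finDim
  have hfM : Finite M := Module.finite_of_finite F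
  have two := A.arc.two_ne
  obtain ⟨e₁, he₁⟩ := A.arc.ne
  obtain ⟨φ₁, h₁⟩ := A.refl e₁ he₁
  set E : Set M := {v | v ∈ S ∧ φ₁ v = 2} with hE
  have hcl : ∀ v ∈ E, ∀ w ∈ E, v + v - w ∈ E := by
    rintro v ⟨hv, hv2⟩ w ⟨hw, hw2⟩
    obtain ⟨φ, h⟩ := A.refl v hv
    have h2 := A.eq_two' h₁ h hv2 hw hw2
    have h3 := h.pres _ hw
    rw [h2] at h3
    have h4 := A.arc.cone.neg_iff.2 h3
    rw [neg_sub, two_smul] at h4
    refine ⟨h4, ?_⟩
    rw [map_sub, map_add, hv2, hw2]
    ring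
  have he₁E : e₁ ∈ E := ⟨he₁, h₁.two⟩
  -- the subgroup
  have hneg : ∀ v, e₁ + v ∈ E → e₁ - v ∈ E := by
    intro v hv
    have := hcl _ he₁E _ hv
    convert this using 1
    abel
  have hdbl : ∀ v, e₁ + v ∈ E → e₁ + (v + v) ∈ E := by
    intro v hv
    have := hcl _ hv _ he₁E
    convert this using 1
    abel
  have hhalf : ∀ v, e₁ + v ∈ E → ∃ u, e₁ + u ∈ E ∧ u + u = v := by
    intro v hv
    let D : Set M := {v | e₁ + v ∈ E}
    have hinj : Function.Injective (fun u : ↥D => (⟨(u : M) + u, hdbl _ u.2⟩ : ↥D)) := by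
      intro u u' huu
      have h1 : (u : M) + u = u' + u' := congrArg Subtype.val huu
      have h2 : (2 : F) • ((u : M) - u') = 0 := by
        rw [two_smul]
        have h3 : (u : M) - u' + (u - u') = (u + u) - (u' + u') := by abel
        rw [h3, h1, sub_self]
      rcases smul_eq_zero.1 h2 with h3 | h3
      · exact absurd h3 two
      · exact Subtype.ext (sub_eq_zero.1 h3)
    obtain ⟨u, hu⟩ := Finite.surjective_of_injective hinj ⟨v, hv⟩
    exact ⟨u, u.2, congrArg Subtype.val hu⟩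
  let D : AddSubgroup M :=
    { carrier := {v | e₁ + v ∈ E}
      zero_mem' := by
        change e₁ + 0 ∈ E
        rwa [add_zero]
      neg_mem' := by
        intro v hv
        change e₁ + -v ∈ E
        rw [← sub_eq_add_neg]
        exact hneg v hv
      add_mem' := by
        intro v w hv hw
        change e₁ + (v + w) ∈ E
        obtain ⟨u, hu, huv⟩ := hhalf v hv
        have h1 := hcl _ hu _ (hneg w hw)
        convert h1 using 1
        rw [← huv]
        abel }
  have hDE : Nat.card ↥D = E.ncard := by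
    rw [← Nat.card_coe_set_eq]
    refine Nat.card_congr ⟨fun v => ⟨e₁ + v, v.2⟩, fun v => ⟨(v : M) - e₁, ?_⟩, fun v => ?_, fun v => ?_⟩
    · change e₁ + ((v : M) - e₁) ∈ E
      rw [add_sub_cancel]
      exact v.2
    · apply Subtype.ext
      change e₁ + (v : M) - e₁ = v
      rw [add_sub_cancel_left]
    · apply Subtype.ext
      change e₁ + ((v : M) - e₁) = v
      rw [add_sub_cancel]
  -- counting
  obtain ⟨N, hN1, hN2, -⟩ := exists_num A.arc
  have hEN : E.ncard = N := by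
    have : Fintype ↥E := Fintype.ofFinite _
    have h1 := card_param A.arc.cone (fun x : ↥E => (x : M)) (fun x => A.arc.cone.ne x.2.1) ?_ S ?_
    · rw [Set.inter_self, hN1] at h1
      have h2 := Nat.eq_of_mul_eq_mul_left (card_pos A.arc) h1
      rw [h2, Finset.sum_congr rfl fun (x : ↥E) _ => chi_pos x.2.1, Finset.sum_const, Finset.card_univ, smul_eq_mul,
        mul_one, ← Nat.card_eq_fintype_card, Nat.card_coe_set_eq]
    · intro x x' c hc
      have h2 := x.2.2
      rw [hc, map_smul, x'.2.2, smul_eq_mul] at h2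
      have h3 : (c - 1) * (2 : F) = 0 := by linear_combination h2
      rcases mul_eq_zero.1 h3 with h4 | h4
      · rw [sub_eq_zero.1 h4, one_smul] at hc
        exact Subtype.ext hc
      · exact absurd h4 two
    · intro v hv
      constructor
      · intro hvS
        have h2 := h₁.ne A.arc hvS
        refine ⟨φ₁ v * 2⁻¹, ⟨(2 * (φ₁ v)⁻¹) • v, ?_, ?_⟩, ?_⟩
        · exact A.arc.cone.smul _ (mul_ne_zero two (inv_ne_zero h2)) _ hvS
        · rw [map_smul, smul_eq_mul, mul_assoc, inv_mul_cancel₀ h2, mul_one]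
        · change v = _ • (_ • v)
          rw [smul_smul]
          have : φ₁ v * 2⁻¹ * (2 * (φ₁ v)⁻¹) = 1 := by field_simp
          rw [this, one_smul]
      · rintro ⟨c, x, rfl⟩
        refine A.arc.cone.smul _ ?_ _ x.2.1
        rintro rfl
        exact hv (zero_smul F _)
  obtain ⟨f, -, hf⟩ := FiniteField.card F p
  have hcM : Nat.card M = p ^ ((f : ℕ) * 3) := by
    rw [Module.natCard_eq_pow_finrank (K := F), A.arc.dim, Nat.card_eq_fintype_card, hf, ← pow_mul]
  have hNd : N ∣ p ^ ((f : ℕ) * 3) := by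
    rw [← hEN, ← hDE, ← hcM]
    exact AddSubgroup.card_addSubgroup_dvd_card D
  obtain ⟨r, hr⟩ := b_dvd A.arc
  have hb1 := A.arc.b1
  have hbq := A.arc.bq
  -- `N = b N'`, `N' + r = q + 1`
  have hb : b ∣ N := by
    have h1 : b ∣ N + Fintype.card F := by rw [hN2]; exact dvd_mul_right _ _
    exact (Nat.dvd_add_left (b_dvd A.arc)).1 h1
  obtain ⟨N', rfl⟩ := hb
  have hN' : N' + r = Fintype.card F + 1 := by
    have h1 : b * (N' + r) = b * (Fintype.card F + 1) := by
      rw [mul_add, ← hr, hN2]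
    exact Nat.eq_of_mul_eq_mul_left (by omega) h1
  have hpr : p ∣ r := by
    have h1 : r ∣ p ^ (f : ℕ) := by
      rw [← hf, hr]
      exact dvd_mul_left _ _
    obtain ⟨i, -, hi⟩ := (Nat.dvd_prime_pow hp.out).1 h1
    rcases Nat.eq_zero_or_pos i with h2 | h2
    · rw [h2, pow_zero] at hi
      rw [hi, mul_one] at hr
      omega
    · rw [hi]
      exact dvd_pow_self p (by omega)
  have hpq : p ∣ Fintype.card F := by
    rw [hf]
    exact dvd_pow_self p f.ne_zero
  have h1 : N' ∣ p ^ ((f : ℕ) * 3) := (dvd_mul_left _ _).trans hNd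
  obtain ⟨i, -, hi⟩ := (Nat.dvd_prime_pow hp.out).1 h1
  rcases Nat.eq_zero_or_pos i with h2 | h2
  · rw [h2, pow_zero] at hi
    rw [hi] at hN'
    have h3 : r = Fintype.card F := by omega
    rw [h3] at hr
    have h4 : 0 < Fintype.card F := by omega
    have : b = 1 := by
      have h5 : b * Fintype.card F = 1 * Fintype.card F := by rw [← hr, one_mul]
      exact Nat.eq_of_mul_eq_mul_right h4 h5
    omega
  · have h3 : p ∣ N' := by
      rw [hi]
      exact dvd_pow_self p (by omega)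
    have h4 : p ∣ Fintype.card F + 1 := by
      rw [← hN']
      exact dvd_add h3 hpr
    have h5 := (Nat.dvd_add_right hpq).1 h4
    exact hp.out.one_lt.ne' (Nat.dvd_one.1 h5)

/-- **The planar arc lemma.** -/
theorem no_arc {F M : Type*} [Field F] [Fintype F] [AddCommGroup M] [Module F M] [FiniteDimensional F M]
    (hM : Module.finrank F M = 3) (hq : Odd (Fintype.card F)) (S : Set M) (h0 : (0 : M) ∉ S)
    (hS : ∀ c : F, c ≠ 0 → ∀ v ∈ S, c • v ∈ S) (hne : S.Nonempty) (b : ℕ) (hb : 1 < b) (hb' : b < Fintype.card F)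
    (hL : ∀ L : Submodule F M, Module.finrank F L = 2 →
      ((L : Set M) ∩ S).ncard = 0 ∨ ((L : Set M) ∩ S).ncard = b * (Fintype.card F - 1))
    (T : Subgroup (M ≃ₗ[F] M)) (hT : ∀ t ∈ T, ∀ v, t v ∈ S ↔ v ∈ S)
    (h1 : ∀ s ∈ S, ∀ L L' : Submodule F M, Module.finrank F L = 2 → Module.finrank F L' = 2 → s ∈ L → s ∈ L' →
      ∃ t ∈ T, (∃ c : F, t s = c • s) ∧ L.map (t : M →ₗ[F] M) = L')
    (h2 : ∀ L : Submodule F M, Module.finrank F L = 2 → ∀ s ∈ S, ∀ s' ∈ S, s ∈ L → s' ∈ L →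
      ∃ t ∈ T, L.map (t : M →ₗ[F] M) = L ∧ ∃ c : F, t s = c • s') : False := by
  obtain ⟨p, hchar⟩ := CharP.exists F
  have hpp : p.Prime := (CharP.char_is_prime_or_zero F p).resolve_right (by
    rintro rfl
    have := CharP.charP_to_charZero F
    exact not_finite F)
  have hp : Fact p.Prime := ⟨hpp⟩
  have hcone : Cone F S := ⟨h0, hS⟩
  have hq0 : 0 < Fintype.card F - 1 := by omega
  have A : IsArc F S b := by
    refine ⟨hcone, fun e w hI => ?_, hM, hb, hb', hq, hne⟩
    have h3 := card_plane hcone hI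
    have h4 : chi S e + row F S e w = chi S e + ∑ a : F, chi S (w + a • e) := rfl
    rw [h4]
    rcases hL _ hI.finrank with h5 | h5
    · left
      rw [h5] at h3
      rcases Nat.mul_eq_zero.1 h3.symm with h6 | h6
      · omega
      · exact h6
    · right
      rw [h5, mul_comm b] at h3
      exact (Nat.eq_of_mul_eq_mul_left hq0 h3).symm
  have hpb : p ∣ b := by
    obtain ⟨f, -, hf⟩ := FiniteField.card F p
    obtain ⟨i, -, hi⟩ := (Nat.dvd_prime_pow hpp).1 (hf ▸ b_dvd A)
    rcases Nat.eq_zero_or_pos i with h3 | h3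
    · rw [h3, pow_zero] at hi
      omega
    · rw [hi]
      exact dvd_pow_self p (by omega)
  have hfull : Full F S b := by
    refine ⟨A, fun s hs => exists_refl A hs fun L L' hL2 hL2' hsL hsL' => ?_, fun e e' φ φ' h h' hI =>
      prod_eq A hpb (fun L hL2 s hs s' hs' hsL hsL' => ?_) h h' hI⟩
    · obtain ⟨t, ht, h3, h4⟩ := h1 s hs L L' hL2 hL2' hsL hsL'
      exact ⟨t, hT t ht, h3, h4⟩
    · obtain ⟨t, ht, h3, h4⟩ := h2 L hL2 s hs s' hs' hsL hsL'
      exact ⟨t, hT t ht, h3, h4⟩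
  exact hfull.false (p := p)

end Cfsg.Agent.H184.Arc
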