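import Mathlib
import Cfsg.Prelude.Def_LocalEven
import Cfsg.Agent.H184.GoldCtx

/-!
# Goldschmidt's theorem, structural form (S2775): `⟨A^G⟩` is the direct product of its components
-/

set_option autoImplicit false
set_option linter.unusedSectionVars false

namespace Cfsg.Agent.H184.GoldCtx

open Subgroup Cfsg
open scoped commutatorElement
open Cfsg.Agent.ClosedTwo Cfsg.Agent.ClosedRed
open Cfsg.Agent.SignalizersComponents Cfsg.Agent.SignalizersComponents.Components
open Cfsg.Agent.SylowL.CompFacts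

universe u

/-- Further inputs. -/
structure Inp2 : Prop extends Inp.{u} where
  inv : ∀ (X : Type u) [Group X] [Finite X] [IsSimpleGroup X], (¬ IsMulCommutative X) →
    ∀ (P : Sylow 2 X) (B : Subgroup X), IsStronglyClosed B (P : Subgroup X) → (∀ x ∈ B, ∀ y ∈ B, x * y = y * x) →
      B ≠ ⊥ → ∀ x ∈ (P : Subgroup X), x * x = 1 → ∀ s ∈ (P : Subgroup X), s * x = x * s
  zstar : ∀ (X : Type u) [Group X] [Finite X] [IsSimpleGroup X], (¬ IsMulCommutative X) →
    ∀ (P : Sylow 2 X) (t : X), t ∈ (P : Subgroup X) → t * t = 1 →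
      (∀ g : X, g * t * g⁻¹ ∈ (P : Subgroup X) → g * t * g⁻¹ = t) → t = 1
  gold : ∀ (X : Type u) [Group X] [Finite X] [IsSimpleGroup X], (¬ IsMulCommutative X) →
    ∀ (P : Sylow 2 X) (B : Subgroup X), IsStronglyClosed B (P : Subgroup X) → (∀ x ∈ B, ∀ y ∈ B, x * y = y * x) →
      B ≠ ⊥ → IsGoldschmidtGroup X

/-- The focal subgroup of `A`. -/
def foc {G : Type u} [Group G] (A : Subgroup G) : Subgroup G :=
  closure {z | ∃ a ∈ A, ∃ g : G, g * a * g⁻¹ ∈ A ∧ z = a * (g * a⁻¹ * g⁻¹)}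

namespace Ctx

variable {G : Type u} [Group G] [Finite G] {S : Sylow 2 G} {A L : Subgroup G} (h : Ctx S A)

include h

theorem not_comm (hL : IsComponent L) : ¬ IsMulCommutative L := quasisimple_not_isMulCommutative hL.2

/-- The strongly closed subgroups of `S ∩ L` inside `A ∩ L`. -/
theorem min (I : Inp.{u}) (hL : IsComponent L) {B : Subgroup G} (hB : B ≤ A ⊓ L)
    (hBsc : ∀ x ∈ B, ∀ g ∈ L, g * x * g⁻¹ ∈ (S : Subgroup G) → g * x * g⁻¹ ∈ B) (hB1 : B ≠ ⊥) : A ⊓ L ≤ B := by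
  obtain ⟨hsimp, hc1, hne, hcase⟩ := h.exc I hL
  obtain ⟨T, hT⟩ := exists_sylow S hL.1
  have hsc : IsStronglyClosed (B.subgroupOf L) (T : Subgroup L) := by
    rw [hT]
    exact ⟨fun x hx => h.sc.1 (mem_inf.1 (hB hx)).1, fun x hx g hg => hBsc x hx g g.2 hg⟩
  have h3 : B.subgroupOf L = ⊥ ∨ B.subgroupOf L = (T : Subgroup L) ∨
      B.subgroupOf L = (center (T : Subgroup L)).map (T : Subgroup L).subtype := by
    rcases I.row L (h.not_comm hL) with hr | ⟨hr, _⟩
    · exact ClosedRow.z hr T _ hsc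
    · exact hr T _ hsc
  rcases h3 with h3 | h3 | h3
  · exfalso
    apply hB1
    rw [subgroupOf_eq_bot] at h3
    have := h3.eq_bot
    rwa [inf_eq_left.2 (hB.trans inf_le_right)] at this
  · rintro x ⟨hx1, hx2⟩
    have h4 : (⟨x, hx2⟩ : L) ∈ (T : Subgroup L) := by rw [hT]; exact h.sc.1 hx1
    rw [← h3] at h4
    exact h4
  · rintro x ⟨hx1, hx2⟩
    have h4 : (⟨x, hx2⟩ : L) ∈ (T : Subgroup L) := by rw [hT]; exact h.sc.1 hx1
    have h5 : (⟨x, hx2⟩ : L) ∈ B.subgroupOf L := by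
      rw [h3]
      rcases hcase with hle | ⟨_, T', hT', hz⟩
      · refine ⟨⟨_, h4⟩, mem_center_iff.2 fun s => Subtype.ext (Subtype.ext ?_), rfl⟩
        have hs : ((s : L) : G) ∈ (S : Subgroup G) := hT.le s.2
        exact h.ab _ (hle (mem_inf.2 ⟨hs, (s : L).2⟩)) _ hx1
      · have hTT : (T' : Subgroup L) = T := by
          apply Subgroup.map_injective L.subtype_injective
          rw [hT', hT, subgroupOf_map_subtype]
        have h6 : x ∈ A ⊓ L := mem_inf.2 ⟨hx1, hx2⟩
        rw [hz] at h6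
        obtain ⟨y, hy, hyx⟩ := h6
        rw [hTT] at hy
        have : y = ⟨x, hx2⟩ := Subtype.ext hyx
        rwa [this] at hy
    exact h5

/-- `A` has exponent two. -/
theorem sq (I : Inp.{u}) {a : G} (ha : a ∈ A) : a * a = 1 := by
  have h2 : Fact (Nat.Prime 2) := ⟨Nat.prime_two⟩
  let Ω : Subgroup G :=
    { carrier := {x | x ∈ A ∧ x * x = 1}
      mul_mem' := by
        rintro x y ⟨hx, hx1⟩ ⟨hy, hy1⟩
        refine ⟨mul_mem hx hy, ?_⟩
        calc x * y * (x * y) = x * (y * x) * y := by group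
          _ = x * x * (y * y) := by rw [h.ab y hy x hx]; group
          _ = 1 := by rw [hx1, hy1, one_mul]
      one_mem' := ⟨one_mem _, one_mul 1⟩
      inv_mem' := by
        rintro x ⟨hx, hx1⟩
        refine ⟨inv_mem hx, ?_⟩
        rw [← mul_inv_rev, hx1, inv_one] }
  have hΩ : ∀ x, x ∈ Ω ↔ x ∈ A ∧ x * x = 1 := fun x => Iff.rfl
  suffices hA : A ≤ Ω from ((hΩ a).1 (hA ha)).2
  conv_lhs => rw [h.eq_iSup I]
  refine iSup₂_le fun L hL => ?_
  have hL' : IsComponent L := hL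
  obtain ⟨hsimp, hc1, hne, hcase⟩ := h.exc I hL'
  refine (h.min I hL' (B := Ω ⊓ L) (inf_le_inf_right L fun x hx => ((hΩ x).1 hx).1) ?_ ?_).trans inf_le_left
  · rintro x ⟨hx, hxL⟩ g hg hgS
    obtain ⟨hxA, hx1⟩ := (hΩ x).1 hx
    refine mem_inf.2 ⟨(hΩ _).2 ⟨h.sc.2 x hxA g hgS, ?_⟩, mul_mem (mul_mem hg hxL) (inv_mem hg)⟩
    calc g * x * g⁻¹ * (g * x * g⁻¹) = g * (x * x) * g⁻¹ := by group
      _ = 1 := by rw [hx1]; group
  · intro h0
    -- an involution of `A ∩ L`
    have h3 : Nontrivial (A ⊓ L : Subgroup G) := (Subgroup.nontrivial_iff_ne_bot _).2 hne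
    have h4 : IsPGroup 2 (A ⊓ L : Subgroup G) := S.2.to_le (inf_le_left.trans h.sc.1)
    obtain ⟨n, hn, hcard⟩ := h4.nontrivial_iff_card.1 h3
    have h5 : 2 ∣ Nat.card (A ⊓ L : Subgroup G) := by
      rw [hcard]; exact dvd_pow_self 2 hn.ne'
    obtain ⟨x, hx⟩ := exists_prime_orderOf_dvd_card' 2 h5
    have h6 : (x : G) ∈ Ω ⊓ L := by
      refine mem_inf.2 ⟨(hΩ _).2 ⟨(mem_inf.1 x.2).1, ?_⟩, (mem_inf.1 x.2).2⟩
      have := pow_orderOf_eq_one x
      rw [hx, pow_two] at this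
      exact congrArg Subtype.val this
    rw [h0, mem_bot] at h6
    have : x = 1 := Subtype.ext h6
    rw [this, orderOf_one] at hx
    norm_num at hx

/-- `A` is generated by the elements `a (a^g)⁻¹`. -/
theorem le_foc (I : Inp2.{u}) : A ≤ foc A := by
  have h2 : Fact (Nat.Prime 2) := ⟨Nat.prime_two⟩
  have hle : foc A ≤ A := by
    refine (Subgroup.closure_le _).2 ?_
    rintro z ⟨a, ha, g, hg, rfl⟩
    refine mul_mem ha ?_
    have := inv_mem hg
    rwa [show (g * a * g⁻¹)⁻¹ = g * a⁻¹ * g⁻¹ by group] at this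
  have hmem : ∀ x ∈ A, ∀ g : G, g * x * g⁻¹ ∈ A → x * (g * x⁻¹ * g⁻¹) ∈ foc A := fun x hx g hg =>
    Subgroup.subset_closure ⟨x, hx, g, hg, rfl⟩
  conv_lhs => rw [h.eq_iSup I.toInp]
  refine iSup₂_le fun L hL => ?_
  have hL' : IsComponent L := hL
  obtain ⟨hsimp, hc1, hne, hcase⟩ := h.exc I.toInp hL'
  refine (h.min I.toInp hL' (B := foc A ⊓ L) (inf_le_inf_right L hle) ?_ ?_).trans inf_le_left
  · rintro x ⟨hx, hxL⟩ g hg hgS
    have hxA := hle hx
    have h3 := h.sc.2 x hxA g hgS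
    have h4 := hmem x hxA g h3
    refine mem_inf.2 ⟨?_, mul_mem (mul_mem hg hxL) (inv_mem hg)⟩
    have h5 := mul_mem (inv_mem h4) hx
    rwa [show (x * (g * x⁻¹ * g⁻¹))⁻¹ * x = g * x * g⁻¹ by group] at h5
  · intro h0
    obtain ⟨T, hT⟩ := exists_sylow S hL'.1
    obtain ⟨⟨x, hx⟩, hx1⟩ := Subgroup.ne_bot_iff_exists_ne_one.1 hne
    apply hx1
    have hx' := hx
    obtain ⟨hxA, hxL⟩ := mem_inf.1 hx'
    have h3 := I.zstar L (h.not_comm hL') T ⟨x, hxL⟩ (by rw [hT]; exact h.sc.1 hxA)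
      (Subtype.ext (h.sq I.toInp hxA)) (by
        intro g hg
        rw [hT] at hg
        have hgS : (g : G) * x * (g : G)⁻¹ ∈ (S : Subgroup G) := hg
        have h4 := hmem x hxA g (h.sc.2 x hxA g hgS)
        have h5 : x * ((g : G) * x⁻¹ * (g : G)⁻¹) ∈ foc A ⊓ L :=
          mem_inf.2 ⟨h4, mul_mem hxL (mul_mem (mul_mem g.2 (inv_mem hxL)) (inv_mem g.2))⟩
        rw [h0, mem_bot] at h5
        apply Subtype.ext
        change (g : G) * x * (g : G)⁻¹ = x
        rw [mul_eq_one_iff_eq_inv] at h5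
        calc (g : G) * x * (g : G)⁻¹ = ((g : G) * x⁻¹ * (g : G)⁻¹)⁻¹ := by group
          _ = x := h5.symm)
    have h6 : x = 1 := congrArg Subtype.val h3
    exact Subtype.ext h6

/-- The components. -/
theorem iSup_eq_top (I : Inp.{u}) : ⨆ i : {L : Subgroup G // IsComponent L}, (i : Subgroup G) = ⊤ := by
  rw [← h.layer_eq_top I]
  apply le_antisymm
  · exact iSup_le fun i => component_le_layer i.2
  · rw [layer_le_iff]
    intro K hK
    exact le_iSup (fun i : {L : Subgroup G // IsComponent L} => (i : Subgroup G)) ⟨K, hK⟩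

omit [Finite G] h in
theorem pairwise_comm : Pairwise fun i j : {L : Subgroup G // IsComponent L} => ∀ x y : G, x ∈ (i : Subgroup G) →
    y ∈ (j : Subgroup G) → Commute x y := by
  intro i j hij x y hx hy
  have h1 : (i : Subgroup G) ≠ j := fun h => hij (Subtype.ext h)
  exact (mem_centralizer_iff.1 (component_le_centralizer_of_ne i.2 j.2 h1 hx) y hy).symm

theorem indep (I : Inp.{u}) : iSupIndep fun i : {L : Subgroup G // IsComponent L} => (i : Subgroup G) := by
  intro i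
  rw [disjoint_iff, eq_bot_iff]
  rintro x ⟨hx1, hx2⟩
  have h1 : (⨆ j, ⨆ (_ : j ≠ i), (j : Subgroup G)) ≤ centralizer ((i : Subgroup G) : Set G) := by
    refine iSup₂_le fun j hj y hy => ?_
    rw [mem_centralizer_iff]
    intro z hz
    exact pairwise_comm (fun h => hj h.symm) z y hz hy
  have h2 : (⟨x, hx1⟩ : (i : Subgroup G)) ∈ center (i : Subgroup G) :=
    mem_center_iff_mem_centralizer.2 (h1 hx2)
  obtain ⟨-, h3, -⟩ := h.exc I i.2
  rw [h3, mem_bot] at h2
  exact mem_bot.2 (congrArg Subtype.val h2)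

/-- `G` is the direct product of its components. -/
theorem exists_equiv (I : Inp.{u}) : ∃ φ : ((i : {L : Subgroup G // IsComponent L}) → (i : Subgroup G)) ≃* G,
    (∀ (i : {L : Subgroup G // IsComponent L}) (x : (i : Subgroup G)), φ.symm (x : G) i = x) ∧
    ∀ (H : Subgroup G) (f : (i : {L : Subgroup G // IsComponent L}) → (i : Subgroup G)),
      (∀ i, (f i : G) ∈ H) → φ f ∈ H := by
  classical
  have hfin : Fintype {L : Subgroup G // IsComponent L} := Fintype.ofFinite _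
  let f := Subgroup.noncommPiCoprod (pairwise_comm (G := G))
  have hinj : Function.Injective f := injective_noncommPiCoprod_of_iSupIndep (h.indep I)
  have hsur : Function.Surjective f := by
    rw [← MonoidHom.range_eq_top, Subgroup.noncommPiCoprod_range, h.iSup_eq_top I]
  let φ := MulEquiv.ofBijective f ⟨hinj, hsur⟩
  have hφ : ∀ x, φ x = f x := fun _ => rfl
  refine ⟨φ, ?_, ?_⟩
  · intro i x
    have h1 : φ (Pi.mulSingle i x) = x := by
      rw [hφ]
      exact Subgroup.noncommPiCoprod_mulSingle i x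
    rw [← h1, MulEquiv.symm_apply_apply, Pi.mulSingle_eq_same]
  · intro H g hg
    rw [hφ]
    have h1 : f g = Finset.noncommProd Finset.univ (fun i => (g i : G)) _ := Subgroup.noncommPiCoprod_apply _ g
    rw [h1]
    exact H.noncommProd_mem _ fun i _ => hg i

/-- The involutions of `S` lie in `A`. -/
theorem mem_of_sq (I : Inp2.{u}) {t : G} (ht : t ∈ (S : Subgroup G)) (h1 : t * t = 1) : t ∈ A := by
  have h2 : Fact (Nat.Prime 2) := ⟨Nat.prime_two⟩
  obtain ⟨φ, hφ1, hφ2⟩ := h.exists_equiv I.toInp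
  rw [show t = φ (φ.symm t) from (φ.apply_symm_apply t).symm]
  apply hφ2
  intro i
  obtain ⟨T, hT⟩ := exists_sylow S i.2.1
  let p : G →* (i : Subgroup G) := (Pi.evalMonoidHom _ i).comp φ.symm.toMonoidHom
  have hp : ∀ x, p x = φ.symm x i := fun _ => rfl
  -- the projection of `S`
  have h3 : (S : Subgroup G).map p = (T : Subgroup (i : Subgroup G)) := by
    apply T.3 (S.2.map p)
    intro x hx
    exact ⟨x, hT.le hx, hφ1 i x⟩
  have h4 : p t ∈ (T : Subgroup (i : Subgroup G)) := by rw [← h3]; exact ⟨t, ht, rfl⟩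
  have h5 : p t * p t = 1 := by rw [← map_mul, h1, map_one]
  have h6 : ((p t : (i : Subgroup G)) : G) ∈ (S : Subgroup G) := hT.le h4
  obtain ⟨hsimp, hc1, hne, hcase⟩ := h.exc I.toInp i.2
  change ((p t : (i : Subgroup G)) : G) ∈ A
  rcases hcase with hle | ⟨_, T', hT', hz⟩
  · exact hle (mem_inf.2 ⟨h6, (p t).2⟩)
  · have hTT : (T' : Subgroup (i : Subgroup G)) = T := by
      apply Subgroup.map_injective (i : Subgroup G).subtype_injective
      rw [hT', hT, subgroupOf_map_subtype]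
    have hsc : IsStronglyClosed (A.subgroupOf i) (T : Subgroup (i : Subgroup G)) := by
      rw [hT]
      exact sc_subgroupOf _ h.sc
    have hne' : A.subgroupOf i ≠ ⊥ := by
      intro h0
      apply hne
      rw [subgroupOf_eq_bot] at h0
      exact h0.eq_bot
    have h7 := I.inv (i : Subgroup G) (h.not_comm i.2) T _ hsc
      (fun x hx y hy => Subtype.ext (h.ab x hx y hy)) hne' (p t) h4 h5
    have h8 : ((p t : (i : Subgroup G)) : G) ∈ A ⊓ (i : Subgroup G) := by
      rw [hz]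
      refine ⟨p t, ⟨⟨p t, hTT.ge h4⟩, mem_center_iff.2 fun s => Subtype.ext ?_, rfl⟩, rfl⟩
      exact h7 s (hTT.le s.2)
    exact (mem_inf.1 h8).1

theorem commutator_eq_top (I : Inp.{u}) : commutator G = ⊤ := by
  rw [eq_top_iff, ← h.layer_eq_top I, layer_le_iff]
  intro K hK
  have hperf : Group.IsPerfect K := hK.2.1
  have h1 : (commutator K).map K.subtype ≤ commutator G := by
    rw [commutator_def, map_commutator, commutator_def]
    exact commutator_mono le_top le_top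
  intro x hx
  apply h1
  rw [hperf.commutator_eq_top]
  exact ⟨⟨x, hx⟩, trivial, rfl⟩

theorem center_eq_bot (I : Inp.{u}) : center G = ⊥ := by
  obtain ⟨φ, hφ1, hφ2⟩ := h.exists_equiv I
  rw [eq_bot_iff]
  intro z hz
  have h1 : φ.symm z = 1 := by
    funext i
    obtain ⟨-, hc1, -⟩ := h.exc I i.2
    have h3 : φ.symm z i ∈ center (i : Subgroup G) := by
      rw [mem_center_iff]
      intro x
      have h4 := congrArg (fun g => φ.symm g i) (mem_center_iff.1 hz (x : G))
      simp only [map_mul, Pi.mul_apply, hφ1 i x] at h4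
      exact h4
    rw [hc1, mem_bot] at h3
    exact h3
  rw [mem_bot, ← φ.apply_symm_apply z, h1, map_one]

theorem pCore_eq_bot (I : Inp.{u}) : pCore 2 G = ⊥ := by
  have h2 : Fact (Nat.Prime 2) := ⟨Nat.prime_two⟩
  have hp := Cfsg.Agent.Lib.Cores.pCore_normal (G := G) 2
  rw [eq_bot_iff, ← h.center_eq_bot I]
  have h1 : centralizer ((pCore 2 G : Subgroup G) : Set G) = ⊤ := by
    rw [eq_top_iff, ← h.gen]
    apply normalClosure_le_normal
    intro a ha
    exact mem_centralizer_iff.2 fun u hu => (h.comm_pCore ha hu).symm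
  intro u hu
  rw [mem_center_iff]
  intro g
  have h3 : g ∈ centralizer ((pCore 2 G : Subgroup G) : Set G) := by rw [h1]; trivial
  exact (mem_centralizer_iff.1 h3 u hu).symm

end Ctx

end Cfsg.Agent.H184.GoldCtx
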